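import Cfsg.Agent.FS.Th.Chain
import Cfsg.Agent.Lib.KleinOrder
import Cfsg.Agent.H466.K547.Wr

/-!
# S5288, the box `Low`: pure group theory (helper24, project FS)
-/

set_option autoImplicit false

namespace Cfsg.Agent.FS.N.L

open Cfsg.Agent.FS.Th

/-- of `2`-power order -/
def Tw2 {B : Type*} [Group B] (a : B) : Prop := ∃ k, a ^ 2 ^ k = 1

theorem Tw2.eq_one {B : Type*} [Group B] {a : B} (h : Tw2 a) (ho : Odd (orderOf a)) : a = 1 := by
  obtain ⟨k, hk⟩ := h
  rw [← orderOf_eq_one_iff]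
  exact Nat.Coprime.eq_one_of_dvd (Nat.Coprime.pow_right k (Nat.coprime_two_right.2 ho)) (orderOf_dvd_of_pow_eq_one hk)

theorem Tw2.of_sq {B : Type*} [Group B] {a : B} (h : Tw2 (a * a)) : Tw2 a := by
  obtain ⟨k, hk⟩ := h
  exact ⟨k + 1, by rw [pow_succ', pow_mul, pow_two, hk]⟩

theorem mem_of_sq {B : Type*} [Group B] {H : Subgroup B} {a : B} (ho : Odd (orderOf a)) (h : a * a ∈ H) : a ∈ H := by
  obtain ⟨m, hm⟩ := ho
  have h1 : a = (a * a) ^ (m + 1) := by
    rw [← pow_two, ← pow_mul, show 2 * (m + 1) = orderOf a + 1 by omega, pow_succ, pow_orderOf_eq_one, one_mul]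
  rw [h1]
  exact H.pow_mem h _

/-- an element of odd order which is a `2`-element modulo a subgroup it normalizes -/
theorem mem_of_tw2 {B : Type*} [Group B] [Finite B] {H : Subgroup B} {θ f : B} (ho : Odd (orderOf θ))
    (hn : ∀ h ∈ H, θ * h * θ⁻¹ ∈ H) (hf : f ∈ H) (h : Tw2 (f⁻¹ * θ)) : θ ∈ H := by
  have h1 : θ ∈ Subgroup.normalizer (H : Set B) := Subgroup.mem_normalizer_fintype hn
  have h2 : f ∈ Subgroup.normalizer (H : Set B) := Subgroup.le_normalizer hf
  let π := QuotientGroup.mk' (H.subgroupOf (Subgroup.normalizer (H : Set B)))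
  have h3 : π ⟨f, h2⟩ = 1 := (QuotientGroup.eq_one_iff _).2 hf
  have h4 : Tw2 (π ⟨θ, h1⟩) := by
    obtain ⟨k, hk⟩ := h
    refine ⟨k, ?_⟩
    have e : π ⟨θ, h1⟩ = π (⟨f, h2⟩⁻¹ * ⟨θ, h1⟩) := by rw [map_mul, map_inv, h3, inv_one, one_mul]
    rw [e, ← map_pow]
    exact (congrArg π (Subtype.ext hk)).trans (map_one π)
  have h5 := h4.eq_one (ho.of_dvd_nat ((orderOf_map_dvd π _).trans (by rw [← Subgroup.orderOf_coe])))
  exact (QuotientGroup.eq_one_iff (N := H.subgroupOf (Subgroup.normalizer (H : Set B))) ⟨θ, h1⟩).1 h5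

section act

variable {B Y : Type*} [Group B] [MulAction B Y] {col : Y → ℕ}

/-- at most two points have the colour `c` -/
def Le2 (col : Y → ℕ) (c : ℕ) : Prop := ∀ x y z, col x = c → col y = c → col z = c → x = y ∨ x = z ∨ y = z

/-- at most three points have the colour `c` -/
def Le3 (col : Y → ℕ) (c : ℕ) : Prop :=
  ∀ x y z w, col x = c → col y = c → col z = c → col w = c → x = y ∨ x = z ∨ y = z ∨ w = x ∨ w = y ∨ w = z

theorem sq_fix {β : B} {y : Y} (h : y = β • y ∨ y = β • β • y ∨ β • y = β • β • y) : (β * β) • y = y := by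
  rw [mul_smul]
  rcases h with h | h | h
  · rw [← h, ← h]
  · exact h.symm
  · have h1 := smul_left_cancel β h
    rw [← h1, ← h1]

theorem odd_fix {β : B} (ho : Odd (orderOf β)) {y : Y} (h : (β * β) • y = y) : β • y = y :=
  mem_of_sq (H := MulAction.stabilizer B y) ho h

theorem Le2.sq (hc : ∀ (β : B) y, col (β • y) = col y) {y : Y} (h : Le2 col (col y)) (β : B) : (β * β) • y = y :=
  sq_fix (h _ _ _ rfl (hc _ _) ((hc _ _).trans (hc _ _)))

theorem Le3.sq (hc : ∀ (β : B) y, col (β • y) = col y) {c : ℕ} (h : Le3 col c) {κ : B} {y₁ : Y} (h1 : col y₁ = c)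
    (h2 : κ • y₁ = y₁) {y : Y} (hy : col y = c) : (κ * κ) • y = y := by
  by_cases e : y = y₁
  · rw [e, mul_smul, h2, h2]
  rcases h y (κ • y) (κ • κ • y) y₁ hy ((hc _ _).trans hy) ((hc _ _).trans ((hc _ _).trans hy)) h1 with
    k | k | k | k | k | k
  · exact sq_fix (Or.inl k)
  · exact sq_fix (Or.inr (Or.inl k))
  · exact sq_fix (Or.inr (Or.inr k))
  · exact absurd k.symm e
  · exact absurd (smul_left_cancel κ (k.symm.trans h2.symm)) e
  · exact absurd (smul_left_cancel κ (smul_left_cancel κ (k.symm.trans (by rw [h2, h2])))) e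

/-- the stabilizer of the points of the small classes and of the class `c` consists of `2`-elements -/
def Sp (B : Type*) [Group B] [MulAction B Y] (col : Y → ℕ) (c : ℕ) : Prop :=
  ∀ α : B, (∀ y, Le2 col (col y) ∨ col y = c → α • y = y) → Tw2 α

theorem Sp.moves (hc : ∀ (β : B) y, col (β • y) = col y) {c : ℕ} (h : Sp B col c) {f : B} (ho : Odd (orderOf f))
    (h1 : f ≠ 1) : ∃ y, col y = c ∧ y ≠ f • y ∧ y ≠ f • f • y ∧ f • y ≠ f • f • y := by
  by_contra h2
  push Not at h2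
  refine h1 ((h f fun y hy => odd_fix ho ?_).eq_one ho)
  rcases hy with hy | hy
  · exact hy.sq hc f
  · refine sq_fix ?_
    by_cases e1 : y = f • y
    · exact Or.inl e1
    by_cases e2 : y = f • f • y
    · exact Or.inr (Or.inl e2)
    · exact Or.inr (Or.inr (h2 y hy e1 e2))

theorem Sp.eq_one (hc : ∀ (β : B) y, col (β • y) = col y) {c : ℕ} (h : Sp B col c) (h2 : Le2 col c) {f : B}
    (ho : Odd (orderOf f)) : f = 1 := by
  by_contra h1
  obtain ⟨y, k1, k2, k3, k4⟩ := h.moves hc ho h1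
  rcases h2 _ _ _ k1 ((hc f _).trans k1) ((hc f _).trans ((hc f _).trans k1)) with k | k | k
  exacts [k2 k, k3 k, k4 k]

theorem Sp.mem [Finite B] (hc : ∀ (β : B) y, col (β • y) = col y) {c : ℕ} (h : Sp B col c) (h3 : Le3 col c)
    {H : Subgroup B} {f θ : B} (hf : f ∈ H) (ho : Odd (orderOf f)) (h1 : f ≠ 1) (hθ : Odd (orderOf θ))
    (hn : ∀ h ∈ H, θ * h * θ⁻¹ ∈ H) : θ ∈ H := by
  obtain ⟨y, k1, k2, k3, k4⟩ := h.moves hc ho h1
  have key : ∀ g ∈ H, θ • y = g • y → θ ∈ H := fun g hg e => by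
    refine mem_of_tw2 hθ hn hg (Tw2.of_sq (h _ fun z hz => ?_))
    rcases hz with hz | hz
    · exact hz.sq hc _
    · exact h3.sq hc k1 (by rw [mul_smul, e, inv_smul_smul]) hz
  rcases h3 y (f • y) (f • f • y) (θ • y) k1 ((hc _ _).trans k1) ((hc _ _).trans ((hc _ _).trans k1))
    ((hc _ _).trans k1) with k | k | k | k | k | k
  · exact absurd k k2
  · exact absurd k k3
  · exact absurd k k4
  · exact key 1 H.one_mem (by rw [one_smul, k])
  · exact key f hf k
  · exact key (f * f) (H.mul_mem hf hf) (by rw [mul_smul, k])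

end act

section ch

variable {A : Type*} [Group A]

/-- the action of the automorphisms on the signs -/
@[reducible] def chAct (A : Type*) [Group A] : MulAction (MulAut A) (A →* ℤˣ) where
  smul α χ := χ.comp (α⁻¹ : MulAut A).toMonoidHom
  one_smul _ := rfl
  mul_smul α β χ := by
    change χ.comp ((α * β)⁻¹ : MulAut A).toMonoidHom = _
    rw [mul_inv_rev]
    rfl

theorem exists_ch {K : Subgroup A} (h : K.index = 2) : ∃ χ : A →* ℤˣ, ∀ g, χ g = 1 ↔ g ∈ K := by
  classical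
  refine ⟨MonoidHom.mk' (fun g => if g ∈ K then 1 else -1) fun a b => ?_, fun g => ?_⟩
  · have := Subgroup.mul_mem_iff_of_index_two h (a := a) (b := b)
    by_cases h1 : a ∈ K <;> by_cases h2 : b ∈ K <;> simp [h1, h2, this]
  · by_cases h1 : g ∈ K <;> simp [h1]

/-- an automorphism which fixes all the signs -/
theorem tw2_of_ch [Finite A] (hA : IsPGroup 2 A) {α : MulAut A} (h : ∀ (χ : A →* ℤˣ) g, χ (α g) = χ g) : Tw2 α := by
  have : Fact (Nat.Prime 2) := ⟨Nat.prime_two⟩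
  let K : ℕ → Subgroup A := fun i => if i = 0 then ⨅ χ : A →* ℤˣ, χ.ker else ⊤
  have h1 := isPGroup_chainStab hA (K := K) (m := 1) rfl fun M hM => by
    by_contra h2
    obtain ⟨N, h3, h4⟩ := H466.K547.exists_index_two hA h2
    obtain ⟨χ, h5⟩ := exists_ch h3
    have h6 : N = ⊤ := top_le_iff.1 (hM ▸ sup_le h4 fun g hg => (h5 g).1 (Subgroup.mem_iInf.1 hg χ))
    rw [h6, Subgroup.index_top] at h3
    omega
  have h2 : α ∈ chainStab K 1 := by
    refine mem_chainStab (fun i x hx => ?_) fun i hi x _ => ?_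
    · rcases i with _ | i
      · exact Subgroup.mem_iInf.2 fun χ => (h χ x).trans (Subgroup.mem_iInf.1 hx χ)
      · exact Subgroup.mem_top _
    · obtain rfl : i = 0 := by omega
      refine Subgroup.mem_iInf.2 fun χ => ?_
      rw [MonoidHom.mem_ker, map_mul, h, map_inv, mul_inv_cancel]
  obtain ⟨k, hk⟩ := h1 ⟨α, h2⟩
  exact ⟨k, congrArg Subtype.val hk⟩

end ch

/-- A self-normalizing Sylow four-group whose involutions are permuted by an outer element. -/
theorem le_of_four {B : Type*} [Group B] [Finite B] (hB : Nat.card B = 20160) {L T : Subgroup B} (hTL : T ≤ L)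
    (hS : ∃ R : Sylow 2 L, (R : Subgroup L) = T.subgroupOf L) {a b τ : B} (ha : a * a = 1) (hb : b * b = 1)
    (hab : a * b = b * a) (hT : ∀ t, t ∈ T ↔ t = 1 ∨ t = a ∨ t = b ∨ t = a * b)
    (hN : ∀ l ∈ L, (∀ t ∈ T, l * t * l⁻¹ ∈ T) → l ∈ T) (hτ : ∀ l ∈ L, τ * l * τ⁻¹ ∈ L) (h1 : τ * a * τ⁻¹ = b)
    (h2 : τ * b * τ⁻¹ = a * b) : L ≤ T := by
  have : Fact (Nat.Prime 2) := ⟨Nat.prime_two⟩
  obtain ⟨R, hR⟩ := hS
  have hc : ∀ s ∈ T, ∀ t ∈ T, s * t = t * s := by
    have e1 : Commute a b := hab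
    have e2 : ∀ s ∈ T, Commute a s ∧ Commute b s := fun s hs => by
      rcases (hT s).1 hs with rfl | rfl | rfl | rfl
      · exact ⟨Commute.one_right _, Commute.one_right _⟩
      · exact ⟨rfl, e1.symm⟩
      · exact ⟨e1, rfl⟩
      · exact ⟨(Commute.refl _).mul_right e1, e1.symm.mul_right rfl⟩
    intro s hs t ht
    rcases (hT s).1 hs with rfl | rfl | rfl | rfl
    · exact Commute.one_left _
    · exact (e2 t ht).1
    · exact (e2 t ht).2
    · exact (e2 t ht).1.mul_left (e2 t ht).2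
  have hP : Subgroup.normalizer ((R : Subgroup L) : Set L) ≤ Subgroup.centralizer ((R : Subgroup L) : Set L) := by
    intro l hl
    have h3 : (l : B) ∈ T := hN l l.2 fun t ht => by
      have h4 : (⟨t, hTL ht⟩ : L) ∈ (R : Subgroup L) := by rw [hR]; exact ht
      have h5 := (Subgroup.mem_normalizer_iff.1 hl _).1 h4
      rw [hR] at h5
      exact h5
    refine Subgroup.mem_centralizer_iff.2 fun t ht => Subtype.ext (hc _ ?_ _ h3)
    rw [hR] at ht
    exact ht
  have hK := MonoidHom.ker_transferSylow_isComplement' R hP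
  set K₀ := (MonoidHom.transferSylow R hP).ker
  have hodd : Odd (Nat.card K₀) := by
    rw [← Nat.not_even_iff_odd, even_iff_two_dvd, ← hK.index_eq_card]
    exact R.not_dvd_index
  have hK0 : ∀ l : L, l ∈ K₀ ↔ Odd (orderOf l) := fun l => ⟨fun h => hodd.of_dvd_nat (K₀.orderOf_dvd_natCard h),
    fun h => by
      obtain ⟨k, hk⟩ := R.2 (MonoidHom.transferSylow R hP l)
      exact Tw2.eq_one ⟨k, hk⟩ (h.of_dvd_nat (orderOf_map_dvd _ _))⟩
  let K := K₀.map L.subtype
  have hKm : ∀ g, g ∈ K ↔ g ∈ L ∧ Odd (orderOf g) := fun g => ⟨by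
    rintro ⟨l, hl, rfl⟩
    exact ⟨l.2, by rw [Subgroup.subtype_apply, Subgroup.orderOf_coe]; exact (hK0 l).1 hl⟩, fun h =>
      ⟨⟨g, h.1⟩, (hK0 _).2 (by rw [← Subgroup.orderOf_coe]; exact h.2), rfl⟩⟩
  have hKc : Nat.card K = Nat.card K₀ := Subgroup.card_map_of_injective L.subtype_injective
  have hcj : ∀ u : B, (∀ l ∈ L, u * l * u⁻¹ ∈ L) → ∀ k ∈ K, u * k * u⁻¹ ∈ K := fun u hu k hk =>
    (hKm _).2 ⟨hu k ((hKm k).1 hk).1, by
      rw [show u * k * u⁻¹ = MulAut.conj u k from rfl, MulEquiv.orderOf_eq]; exact ((hKm k).1 hk).2⟩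
  have hL : ∀ u ∈ T, ∀ l ∈ L, u * l * u⁻¹ ∈ L := fun u hu l hl =>
    L.mul_mem (L.mul_mem (hTL hu) hl) (L.inv_mem (hTL hu))
  have aT : a ∈ T := (hT _).2 (Or.inr (Or.inl rfl))
  have bT : b ∈ T := (hT _).2 (Or.inr (Or.inr (Or.inl rfl)))
  have h3 := Lib.KleinOrder.card_klein K (hKc ▸ hodd) ha hb hab (hcj a (hL a aT)) (hcj b (hL b bT))
  have h4 : K ⊓ Subgroup.centralizer {a} ⊓ Subgroup.centralizer {b} = ⊥ := by
    refine eq_bot_iff.2 fun k hk => ?_
    have e1 : Commute k a := Subgroup.mem_centralizer_singleton_iff.1 hk.1.2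
    have e2 : Commute k b := Subgroup.mem_centralizer_singleton_iff.1 hk.2
    have e3 : k ∈ T := hN k ((hKm k).1 hk.1.1).1 fun t ht => by
      have e4 : Commute k t := by
        rcases (hT t).1 ht with rfl | rfl | rfl | rfl
        exacts [Commute.one_right _, e1, e2, e1.mul_right e2]
      rwa [e4.eq, mul_inv_cancel_right]
    refine Tw2.eq_one ⟨1, ?_⟩ ((hKm k).1 hk.1.1).2
    rw [pow_one, pow_two]
    rcases (hT k).1 e3 with rfl | rfl | rfl | rfl
    · exact one_mul 1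
    · exact ha
    · exact hb
    · rw [mul_assoc, ← mul_assoc b, ← hab, mul_assoc, hb, mul_one, ha]
  have h5 : ∀ u : B, Nat.card (K ⊓ Subgroup.centralizer {u} : Subgroup B) ≤
      Nat.card (K ⊓ Subgroup.centralizer {τ * u * τ⁻¹} : Subgroup B) := fun u =>
    Nat.card_le_card_of_injective (fun k => ⟨τ * k * τ⁻¹, hcj τ hτ k k.2.1, Subgroup.mem_centralizer_singleton_iff.2 (by
      have e := Subgroup.mem_centralizer_singleton_iff.1 k.2.2
      calc τ * k * τ⁻¹ * (τ * u * τ⁻¹) = τ * (k * u) * τ⁻¹ := by group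
        _ = τ * u * τ⁻¹ * (τ * k * τ⁻¹) := by rw [e]; group)⟩) fun k l e =>
      Subtype.ext (mul_left_cancel (mul_right_cancel (congrArg Subtype.val e)))
  have h6 : τ * (a * b) * τ⁻¹ = a := by
    calc τ * (a * b) * τ⁻¹ = τ * a * τ⁻¹ * (τ * b * τ⁻¹) := by group
      _ = a := by rw [h1, h2, ← mul_assoc, ← hab, mul_assoc, hb, mul_one]
  have h7 := h5 a
  have h8 := h5 b
  have h9 := h5 (a * b)
  rw [h1] at h7
  rw [h2] at h8
  rw [h6] at h9
  rw [h4, Subgroup.card_bot, one_pow, mul_one, ← le_antisymm h8 (h9.trans h7), ← le_antisymm h7 (h8.trans h9)] at h3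
  have h10 : Nat.card K ∣ 20160 := hB ▸ K.card_subgroup_dvd_card
  have h11 : Odd (Nat.card K) := hKc ▸ hodd
  have h12 : Nat.card K = 1 := by
    generalize Nat.card (K ⊓ Subgroup.centralizer {a} : Subgroup B) = c at h3
    rw [h3] at h10 h11 ⊢
    have h13 : c < 28 := by
      by_contra h
      have := Nat.le_of_dvd (by norm_num) h10
      have h14 : 28 * 28 * 28 ≤ c * c * c := Nat.mul_le_mul (Nat.mul_le_mul (by omega) (by omega)) (by omega)
      omega
    revert h10 h11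
    interval_cases c <;> decide
  have h13 : (R : Subgroup L) = ⊤ := by
    rw [← Subgroup.index_eq_one, hK.index_eq_card, ← hKc, h12]
  intro l hl
  have h14 : (⟨l, hl⟩ : L) ∈ (R : Subgroup L) := h13 ▸ Subgroup.mem_top _
  rw [hR] at h14
  exact h14

end Cfsg.Agent.FS.N.L
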